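import Cfsg.Prelude.Def_KGroupFacts
import Cfsg.Agent.Lib.Suz.Map

/-! Automorphisms of the Suzuki groups. -/

set_option autoImplicit false

namespace Cfsg.Agent.Suz

open Matrix MulAction

variable {F : Type*} [Field F] {m : ℕ} [SuzF F m]

theorem aut_eq_fieldAut (f : MulAut (G F m)) (hU : ∀ g ∈ U F, f g ∈ U F)
    (hH : ∀ g ∈ H F, f g ∈ H F) {e : F} (h1 : f (u 1 0) = u 1 e) :
    ∃ σ : F ≃+* F, f = fieldAut σ := by
  choose A E hAE using fun a b : F => hU _ (u_mem_U a b)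
  choose ψ hψ using fun μ : Fˣ => mem_H.mp (hH _ (hh_mem_H μ))
  have hZ : ∀ b, A 0 b = 0 := by
    intro b
    have h2 : f (u 0 b) ∈ Z F := mem_Z_of_sq (hU _ (u_mem_U 0 b)) (by
      rw [← map_mul, sq_of_mem_Z (u_mem_Z b), map_one])
    obtain ⟨c, hc⟩ := h2
    rw [hAE, u_inj] at hc
    exact hc.1
  have hA : ∀ a b, A a b = A a 0 := by
    intro a b
    have : (u a b : G F m) = u a 0 * u 0 b := by simp [u_mul_u]
    have h2 := congrArg f this
    rw [map_mul, hAE, hAE, hAE, u_mul_u, u_inj, hZ, add_zero] at h2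
    exact h2.1
  have hadd : ∀ a c, A (a + c) 0 = A a 0 + A c 0 := by
    intro a c
    have h2 := congrArg f (u_mul_u (m := m) a 0 c 0)
    rw [map_mul, hAE, hAE, hAE, u_mul_u, u_inj, hA (a + c)] at h2
    exact h2.1.symm
  have hconj : ∀ (μ : Fˣ) (a : F), A (μ * a) 0 = ψ μ * A a 0 ∧
      E (μ * a) 0 = ψ μ * θ (ψ μ : F) * E a 0 := by
    intro μ a
    have h2 := congrArg f (hh_conj_u (m := m) μ a 0)
    rw [map_mul, map_mul, map_inv, hψ, hAE, hAE, hh_conj_u, u_inj, mul_zero] at h2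
    exact ⟨h2.1.symm, h2.2.symm⟩
  have hone : A 1 0 = 1 ∧ E 1 0 = e := by
    rw [hAE, u_inj] at h1; exact h1
  have hAψ : ∀ μ : Fˣ, A μ 0 = ψ μ := fun μ => by
    have := (hconj μ 1).1
    rwa [mul_one, hone.1, mul_one] at this
  have hEψ : ∀ a : F, E a 0 = A a 0 * θ (A a 0) * e := fun a => by
    by_cases ha : a = 0
    · subst ha
      have := hAE 0 0
      rw [u_zero_zero, map_one, eq_comm, u_eq_one] at this
      simp [this.1, this.2]
    · have := (hconj (Units.mk0 a ha) 1).2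
      rw [mul_one, hone.2, ← hAψ] at this
      exact this
  let σ0 : F →+* F :=
    { toFun := fun a => A a 0
      map_one' := hone.1
      map_mul' := fun a c => by
        by_cases ha : a = 0
        · simp [ha, hZ]
        · have := (hconj (Units.mk0 a ha) c).1
          rw [← hAψ] at this
          exact this
      map_zero' := hZ 0
      map_add' := hadd }
  let σ : F ≃+* F := RingEquiv.ofBijective σ0 (Finite.injective_iff_bijective.mp σ0.injective)
  have hσ : ∀ a, σ a = A a 0 := fun _ => rfl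
  have hfz : ∀ b, f (u 0 b) = u 0 (σ b) := by
    intro b
    obtain ⟨a, rfl⟩ := nm_surjective b
    have h2 := congrArg f (u_sq (m := m) a 0)
    rw [map_pow, hAE, u_sq] at h2
    simp only
    rw [← h2, map_mul, ← hσ]
    congr 2
    exact (map_θ_self (σ : F →+* F) a).symm
  have hfa : ∀ a, f (u a 0) = u (σ a) (σ a * θ (σ a) * e) := fun a => by
    rw [hAE, hEψ, hσ]
  have he : e = 0 := by
    obtain ⟨t, ht0, ht1⟩ := exists_ne_zero_one (F := F)
    obtain ⟨s, rfl⟩ := σ.surjective t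
    have h2 : (u s 0 * u 1 0 : G F m) = u (s + 1) 0 * u 0 (θ s) := by simp [u_mul_u]
    have h3 := congrArg f h2
    have h4 : σ (θ s) = θ (σ s) := map_θ_self (σ : F →+* F) s
    rw [map_mul, map_mul, hfa, hfa, hfa, hfz, u_mul_u, u_mul_u, u_inj, map_add, map_one, h4] at h3
    have h5 := h3.2
    simp only [θ_add, θ_one, mul_zero, add_zero, mul_one] at h5
    have h6 : (θ (σ s) + σ s) * e = 0 := by grind
    rcases mul_eq_zero.mp h6 with h7 | h7
    · have : θ (σ s) = σ s := by grind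
      rcases θ_eq_self_iff.mp this with h8 | h8
      · exact absurd h8 ht0
      · exact absurd h8 ht1
    · exact h7
  subst he
  have hfu : ∀ a b, f (u a b) = u (σ a) (σ b) := by
    intro a b
    have : (u a b : G F m) = u a 0 * u 0 b := by simp [u_mul_u]
    rw [this, map_mul, hfa, hfz]; simp [u_mul_u]
  have hfh : ∀ μ : Fˣ, f (hh μ) = hh (Units.map (σ : F →+* F).toMonoidHom μ) := by
    intro μ
    rw [hψ, hh_inj]
    exact Units.ext (hAψ μ).symm
  have hfw : f w = w := by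
    obtain ⟨t, ht0, ht1⟩ := exists_ne_zero_one (F := F)
    have hμ : Units.mk0 t ht0 ≠ 1 := fun he => ht1 (congrArg Units.val he)
    have hψ1 : ψ (Units.mk0 t ht0) ≠ 1 := by
      intro he
      have := hψ (Units.mk0 t ht0)
      rw [he, hh_one, MulEquiv.map_eq_one_iff, hh_eq_one] at this
      exact hμ this
    have h2 : f w * hh (ψ (Units.mk0 t ht0)) * (f w)⁻¹ ∈ H F := by
      rw [← hψ, ← map_inv, ← map_mul, ← map_mul, w_mul_hh, mul_inv_cancel_right]
      exact hH _ (hh_mem_H _)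
    rcases conj_hh_mem_H hψ1 h2 with ⟨ν, hν⟩ | ⟨ν, hν⟩
    · exfalso
      have h3 : (hh ν : G F m) * hh ν = 1 := by rw [← hν, ← map_mul, w_mul_w, map_one]
      rw [hh_mul_hh, hh_eq_one, ← sq] at h3
      rw [unit_eq_one_of_pow_two_pow (k := 1) h3, hh_one, MulEquiv.map_eq_one_iff] at hν
      exact w_ne_one hν
    · have hp : (w : G F m) • (pt 0 1 : Pt F m) = pt 1 0 := by
        rw [w_smul_pt (by simp)]; simp
      have hB : (w * u 0 1 * w : G F m) ∉ B F := by
        simp [mem_B, mul_smul, hp]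
      obtain ⟨a, b, μ, c, d, hb⟩ := bruhat hB
      have e1 := congrArg (fun g : G F m => g • (inf : Pt F m)) hb
      have e2 := congrArg (fun g : G F m => f g • (inf : Pt F m)) hb
      simp only [map_mul, hν, hfu, hfh] at e2
      simp [mul_smul, hp] at e1 e2
      have : ν = 1 := Units.ext (by rw [e2.1, ← e1.1, map_one]; rfl)
      rw [hν, this, hh_one, one_mul]
  refine ⟨σ, MulEquiv.toMonoidHom_injective (hom_ext (fun a b => ?_) (fun μ => ?_) ?_)⟩
  · simp [fieldAut_apply, hfu]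
  · simp [fieldAut_apply, hfh]
  · simp [fieldAut_apply, hfw]

theorem exists_aut_eq (f : MulAut (G F m)) :
    ∃ (x : G F m) (σ : F ≃+* F), f = MulAut.conj x * fieldAut σ := by
  have hz1 : (u 0 1 : G F m) ≠ 1 := by simp [u_eq_one]
  -- step 1
  have step1 : ∀ f : MulAut (G F m), f (u 0 1) ∈ U F →
      (∀ g ∈ U F, f g ∈ U F) ∧ (∀ g ∈ B F, f g ∈ B F) := by
    intro f hf
    have hf1 : f (u 0 1) ≠ 1 := by simpa using hz1
    have h1 : ∀ g ∈ U F, f g ∈ U F := by
      rintro _ ⟨a, b, rfl⟩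
      exact mem_U_of_commute hf hf1 (by rw [← map_mul, ← map_mul, u_comm_z])
    refine ⟨h1, fun g hg => mem_B_of_conj_mem_U hf hf1 ?_⟩
    rw [← map_inv, ← map_mul, ← map_mul]
    exact h1 _ (conj_mem_U (u_mem_U 0 1) hg)
  obtain ⟨x, hx⟩ := exists_conj_mem_U_of_tr (g := f (u 0 1)) (tr_eq_zero_of_sq (by
    rw [← map_mul, sq_of_mem_Z (u_mem_Z 1), map_one]))
  obtain ⟨hU1, hB1⟩ := step1 (MulAut.conj x⁻¹ * f) (by simpa using hx)
  obtain ⟨t, ht0, ht1⟩ := exists_ne_zero_one (F := F)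
  have hμ : Units.mk0 t ht0 ≠ 1 := fun he => ht1 (congrArg Units.val he)
  obtain ⟨ν, c, d, hν, he⟩ : ∃ (ν : Fˣ) (c d : F), ν ≠ 1 ∧
      (MulAut.conj x⁻¹ * f) (hh (Units.mk0 t ht0)) = u c d * hh ν * (u c d)⁻¹ := by
    refine (mem_B_cases (hB1 _ (hh_mem_B _))).resolve_left fun hU => ?_
    have h4 := pow_four_of_tr_eq_zero (tr_eq_zero_of_mem_U hU)
    rw [← map_pow, MulEquiv.map_eq_one_iff, hh_pow, hh_eq_one] at h4
    exact hμ (unit_eq_one_of_pow_two_pow (k := 2) h4)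
  set f2 := MulAut.conj (u c d)⁻¹ * (MulAut.conj x⁻¹ * f) with hf2
  have hU2 : ∀ g ∈ U F, f2 g ∈ U F := fun g hg =>
    conj_mem_U (hU1 g hg) (inv_mem (u_mem_B c d))
  have hh2 : f2 (hh (Units.mk0 t ht0)) = hh ν := by
    rw [hf2, MulAut.mul_apply, he, MulAut.conj_apply]; group
  have hH2 : ∀ g ∈ H F, f2 g ∈ H F := by
    rintro _ ⟨μ, rfl⟩
    rw [← centralizer_hh hν, Subgroup.mem_centralizer_singleton_iff, ← hh2, ← map_mul, ← map_mul,
      hHom_apply, hh_comm]
  obtain ⟨a, b, hab⟩ := hU2 _ (u_mem_U 1 0)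
  have ha : a ≠ 0 := by
    rintro rfl
    have h2 : f2 (u 1 0) ^ 2 = 1 := by rw [hab, u_sq]; simp
    rw [← map_pow, MulEquiv.map_eq_one_iff, u_sq, u_eq_one] at h2
    simp at h2
  obtain ⟨σ, hσ⟩ := aut_eq_fieldAut (MulAut.conj (hh (Units.mk0 a ha)⁻¹) * f2)
    (fun g hg => conj_mem_U (hU2 g hg) (hh_mem_B _))
    (fun g hg => mul_mem (mul_mem (hh_mem_H _) (hH2 g hg)) (inv_mem (hh_mem_H _)))
    (e := _) (by
      rw [MulAut.mul_apply, hab, MulAut.conj_apply, hh_conj_u]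
      simp only [Units.val_inv_eq_inv_val, Units.val_mk0, inv_mul_cancel₀ ha]
      rfl)
  refine ⟨(hh (Units.mk0 a ha)⁻¹ * (u c d)⁻¹ * x⁻¹)⁻¹, σ, ?_⟩
  rw [← hσ, hf2, map_inv, map_mul, map_mul]
  group

theorem eq_of_fieldAut_eq {x : G F m} {σ τ : F ≃+* F}
    (he : fieldAut τ = MulAut.conj x * fieldAut σ) : σ = τ := by
  have hz1 : (u 0 1 : G F m) ≠ 1 := by simp [u_eq_one]
  have h1 := congrArg (fun f : MulAut (G F m) => f (u 0 1)) he
  simp only [fieldAut_apply, mapG_u, map_zero, map_one, MulAut.mul_apply, MulAut.conj_apply] at h1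
  have hB : x ∈ B F := mem_B_of_conj_mem_U (u_mem_U 0 1) hz1 (by rw [← h1]; simp)
  have hU : x ∈ U F := mem_U_of_commute (u_mem_U 0 1) hz1 (by
    rw [eq_mul_inv_iff_mul_eq] at h1; exact h1.symm)
  obtain ⟨c, d, rfl⟩ := hU
  ext a
  have h2 := congrArg (fun f : MulAut (G F m) => f (u a 0)) he
  simp only [fieldAut_apply, mapG_u, map_zero, MulAut.mul_apply, MulAut.conj_apply, u_conj_u,
    u_inj] at h2
  exact h2.1.symm

theorem card_ringEquiv (F : Type*) [Field F] {m : ℕ} [SuzF F m] :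
    Nat.card (F ≃+* F) = 2 * m + 1 := by
  have : Fact (Nat.Prime 2) := ⟨Nat.prime_two⟩
  letI := ZMod.algebra F 2
  have h1 : Module.finrank (ZMod 2) F = 2 * m + 1 := by
    have := FiniteField.pow_finrank_eq_natCard 2 F
    rw [card_F] at this
    exact Nat.pow_right_injective le_rfl this
  rw [← h1, ← IsGalois.card_aut_eq_finrank]
  refine Nat.card_congr ⟨fun σ => AlgEquiv.ofRingEquiv (f := σ) (fun x => ?_), fun σ => σ,
    fun _ => rfl, fun _ => rfl⟩
  exact congrFun (congrArg DFunLike.coe (Subsingleton.elim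
    ((σ : F →+* F).comp (algebraMap (ZMod 2) F)) (algebraMap (ZMod 2) F))) x

theorem card_Out : Nat.card (Cfsg.Out (G F m)) = 2 * m + 1 := by
  rw [← card_ringEquiv F]
  symm
  refine Nat.card_eq_of_bijective (fun σ => QuotientGroup.mk (fieldAut σ)) ⟨?_, ?_⟩
  · intro σ τ he
    have h1 : fieldAut τ / fieldAut σ ∈ Cfsg.Inn (G F m) := QuotientGroup.eq_iff_div_mem.mp he.symm
    obtain ⟨x, hx⟩ := h1
    exact eq_of_fieldAut_eq (x := x) (by rw [hx, div_mul_cancel])
  · intro f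
    induction f using QuotientGroup.induction_on with
    | H f =>
      obtain ⟨x, σ, rfl⟩ := exists_aut_eq f
      refine ⟨σ, (QuotientGroup.eq_iff_div_mem.mpr ?_).symm⟩
      rw [mul_div_cancel_right]
      exact ⟨x, rfl⟩

theorem card_Out_congr {A C : Type*} [Group A] [Group C] (e : A ≃* C) :
    Nat.card (Cfsg.Out A) = Nat.card (Cfsg.Out C) := by
  refine Nat.card_congr (QuotientGroup.congr _ _ (MulAut.congr e) ?_).toEquiv
  ext f
  constructor
  · rintro ⟨_, ⟨x, rfl⟩, rfl⟩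
    exact ⟨e x, by ext y; simp⟩
  · rintro ⟨x, rfl⟩
    exact ⟨_, ⟨e.symm x, rfl⟩, by ext y; simp⟩

end Cfsg.Agent.Suz
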