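import Cfsg.Agent.Lib.Mult.Comm
import Cfsg.Agent.Lib.Suz.Sub

/-! Stem extensions of the Suzuki groups. -/

set_option autoImplicit false

namespace Cfsg.Agent.Suz

open Subgroup Cfsg.Agent.Mult Polynomial
open scoped commutatorElement

variable {F : Type*} [Field F] {m : ℕ} [h : SuzF F m]

theorem exists_inv_not_add (F : Type*) [Field F] {m : ℕ} [h : SuzF F m] :
    ∃ a : F, a ≠ 0 ∧ 1 + a ≠ 0 ∧ (1 + a)⁻¹ ≠ a⁻¹ + 1 := by
  by_contra hc
  push Not at hc
  have h8 := eight_le_card (F := F)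
  rw [card_F] at h8
  have : (X ^ 4 + X : F[X]) = 0 := by
    refine poly_eq_zero _ (lt_of_le_of_lt (by compute_degree) (by omega : 4 < _)) fun a => ?_
    simp only [eval_add, eval_pow, eval_X]
    by_cases h0 : a = 0
    · simp [h0]
    by_cases h1 : 1 + a = 0
    · grind
    have := hc a h0 h1
    field_simp at this
    grind
  have := congrArg (coeff · 1) this
  simp [coeff_X_pow] at this

theorem exists_nm_inv_not_add (hm : 2 ≤ m) : ∃ a : F, a ≠ 0 ∧ 1 + a ≠ 0 ∧
    ((1 + a) * θ (1 + a))⁻¹ ≠ (a * θ a)⁻¹ + 1 := by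
  by_contra hc
  push Not at hc
  have h8 : 8 ≤ 2 ^ (m + 1) := by
    calc 8 = 2 ^ 3 := rfl
      _ ≤ _ := Nat.pow_le_pow_right (by norm_num) (by omega)
  have h9 : 2 * 2 ^ (2 * m + 1) = 2 ^ (m + 1) * 2 ^ (m + 1) := by ring
  have hθ := θ_def (F := F)
  generalize 2 ^ (m + 1) = r at h8 h9 hθ
  have : (X * (1 + X) * (1 + X + X ^ r + X * X ^ r * (1 + X) * (1 + X ^ r)) : F[X]) = 0 := by
    refine poly_eq_zero _ (lt_of_le_of_lt (b := 2 * r + 4) (by compute_degree; omega)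
      (by nlinarith)) fun a => ?_
    simp only [eval_add, eval_pow, eval_X, eval_mul, eval_one, ← hθ]
    by_cases h0 : a = 0
    · simp [h0]
    by_cases h1 : 1 + a = 0
    · simp [h1]
    have h2 := hc a h0 h1
    have h3 := θ_ne_zero h0
    have h4 := θ_ne_zero h1
    rw [θ_add, θ_one] at h2 h4
    field_simp at h2
    grind
  rw [mul_eq_zero, mul_eq_zero] at this
  rcases this with (h1 | h1) | h1
  · exact X_ne_zero h1
  · simpa using congrArg (eval 0) h1
  · have h2 : r ≠ 0 := by omega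
    simpa [h2] using congrArg (eval 0) h1

variable {Γ : Type*} [Group Γ] {σ : Γ →* G F m} (hσ : IsStemExtension σ)

theorem cm_z_z (b d : F) : cm hσ (u 0 b) (u 0 d) = 1 := by
  obtain ⟨a, h0, h1, h2⟩ := exists_inv_not_add F
  have hz : ∀ b d : F, (u 0 (b + d) : G F m) = u 0 b * u 0 d := fun b d => by simp [u_mul_u]
  refine form_trivial (fun b d => cm hσ (u 0 b) (u 0 d)) id (fun b b' d => ?_) (fun b d d' => ?_)
    (fun _ h => h) (fun μ d hμ => ?_) h0 h1 h2 b d
  · rw [hz, cm_mul_left' hσ (u_comm_z _ _ _)]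
  · rw [hz, cm_mul_right' hσ (u_comm_z _ _ _)]
  · obtain ⟨ν, rfl⟩ := nm_surjective μ
    have hν : ν ≠ 0 := by rintro rfl; simp at hμ
    have := cm_conj_of_commute hσ (u_comm_z (0 : F) 1 d) (hh (Units.mk0 ν hν))
    simpa [hh_conj_u] using this

theorem cm_u_z (a b d : F) : cm hσ (u a b) (u 0 d) = cm hσ (u a 0) (u 0 d) := by
  rw [show (u a b : G F m) = u a 0 * u 0 b by simp [u_mul_u], cm_mul_left' hσ (u_comm_z _ _ _),
    cm_z_z, one_mul]

theorem cm_u_z_add_left (a a' d : F) :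
    cm hσ (u (a + a') 0) (u 0 d) = cm hσ (u a' 0) (u 0 d) * cm hσ (u a 0) (u 0 d) := by
  rw [← cm_mul_left' hσ (u_comm_z _ _ _), u_mul_u, cm_u_z hσ _ (_ + _)]

theorem cm_u_z_add_right (a d d' : F) :
    cm hσ (u a 0) (u 0 (d + d')) = cm hσ (u a 0) (u 0 d) * cm hσ (u a 0) (u 0 d') := by
  rw [← cm_mul_right' hσ (u_comm_z _ _ _)]; simp [u_mul_u]

theorem cm_u_z_inv (μ d : F) (hμ : μ ≠ 0) :
    cm hσ (u μ 0) (u 0 (μ * θ μ * d)) = cm hσ (u 1 0) (u 0 d) := by
  have := cm_conj_of_commute hσ (u_comm_z (1 : F) 0 d) (hh (Units.mk0 μ hμ))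
  simpa [hh_conj_u] using this

theorem cm_u_z_eq_one (hm : 2 ≤ m) (a b d : F) : cm hσ (u a b) (u 0 d) = 1 := by
  obtain ⟨e, h0, h1, h2⟩ := exists_nm_inv_not_add (F := F) hm
  rw [cm_u_z]
  exact form_trivial (fun a d => cm hσ (u a 0) (u 0 d)) (fun μ => μ * θ μ) (cm_u_z_add_left hσ)
    (cm_u_z_add_right hσ) (fun _ h => mul_ne_zero h (θ_ne_zero h)) (cm_u_z_inv hσ) h0 h1 h2 a d

theorem commutator_mem_Z {x y : G F m} (hx : x ∈ U F) (hy : y ∈ U F) : ⁅x, y⁆ ∈ Z F := by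
  obtain ⟨a, b, rfl⟩ := hx
  obtain ⟨c, d, rfl⟩ := hy
  rw [commutatorElement_def, u_conj_u, u_inv, u_mul_u, add_self']
  exact u_mem_Z _

theorem index_U : (U F).index = (2 ^ (2 * m + 1) - 1) * ((2 ^ (2 * m + 1)) ^ 2 + 1) := by
  have h1 := (U F).card_mul_index
  rw [card_U, card_G, mul_assoc] at h1
  exact Nat.eq_of_mul_eq_mul_left (by positivity) h1

/-- If the preimage of `Z` is central in the preimage of `U` then the stem extension is trivial. -/
theorem ker_eq_bot (hz : ∀ a b d : F, cm hσ (u a b) (u 0 d) = 1) : σ.ker = ⊥ := by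
  have hc : ∀ x y : Γ, σ x ∈ U F → σ y ∈ Z F → Commute x y := by
    rintro x y ⟨a, b, hx⟩ ⟨d, hy⟩
    rw [← cm_eq_one_iff hσ, hx, hy, hz]
  let _ : CommGroup ((Z F).comap σ) :=
    { (inferInstance : Group ((Z F).comap σ)) with
      mul_comm := fun x y => Subtype.ext (hc _ _ (Z_le_U x.2) y.2) }
  let c : Fˣ → (Z F).comap σ →* (Z F).comap σ := fun μ =>
    { toFun := fun z => ⟨sec hσ (hh μ) * z * (sec hσ (hh μ))⁻¹, by
        obtain ⟨b, hb⟩ := z.2
        rw [mem_comap, map_mul, map_mul, map_inv, map_sec, hb, hh_conj_u, mul_zero]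
        exact u_mem_Z _⟩
      map_one' := by ext; simp
      map_mul' := fun x y => by ext; simp [mul_assoc] }
  have hcc : ∀ μ ν z, c μ (c ν z) = c (μ * ν) z := fun μ ν z => by
    ext
    change sec hσ (hh μ) * (sec hσ (hh ν) * z * (sec hσ (hh ν))⁻¹) * (sec hσ (hh μ))⁻¹ =
      sec hσ (hh (μ * ν)) * z * (sec hσ (hh (μ * ν)))⁻¹
    rw [← conj_congr hσ.2.1 (x := sec hσ (hh μ) * sec hσ (hh ν)) (x' := sec hσ (hh (μ * ν)))
      (by simp [hh_mul_hh])]
    group
  have := Fintype.ofFinite Fˣ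
  let π : (Z F).comap σ →* (Z F).comap σ := ∏ μ, c μ
  have hπ : ∀ z, π z = ∏ μ, c μ z := fun z => MonoidHom.finset_prod_apply _ _ _
  have hπc : ∀ ν z, π (c ν z) = π z := fun ν z => by
    rw [hπ, hπ, ← Equiv.prod_comp (Equiv.mulRight ν) fun μ => c μ z]
    simp [hcc]
  have hmem : ∀ {x y : G F m}, x ∈ U F → y ∈ U F → cm hσ x y ∈ (Z F).comap σ := fun hx hy => by
    rw [mem_comap, map_cm]; exact commutator_mem_Z hx hy
  have hl : ∀ {g g' y : G F m}, g ∈ U F → g' ∈ U F → y ∈ U F →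
      cm hσ (g * g') y = cm hσ g' y * cm hσ g y := fun hg hg' hy =>
    cm_mul_left hσ (hc _ _ (by simpa using hg) (hmem hg' hy))
  have hr : ∀ {g y y' : G F m}, g ∈ U F → y ∈ U F → y' ∈ U F →
      cm hσ g (y * y') = cm hσ g y * cm hσ g y' := fun hg hy hy' =>
    cm_mul_right hσ (hc _ _ (by simpa using hy) (hmem hg hy'))
  have hred : ∀ a b c d : F, cm hσ (u a b) (u c d) = cm hσ (u a 0) (u c 0) := fun a b c d => by
    rw [show (u c d : G F m) = u c 0 * u 0 d by simp [u_mul_u], hr (by simp) (by simp) (by simp),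
      hz, mul_one, show (u a b : G F m) = u a 0 * u 0 b by simp [u_mul_u],
      hl (by simp) (by simp) (by simp), cm_swap, hz, inv_one, one_mul]
  obtain ⟨e, h0, h1, h2⟩ := exists_inv_not_add F
  have hform := form_trivial
    (fun a d : F => π ⟨cm hσ (u a 0) (u d 0), hmem (u_mem_U _ _) (u_mem_U _ _)⟩) id
    (fun a a' d => by
      rw [← map_mul]; congr 1; ext
      change _ = _ * _
      rw [← hl (by simp) (by simp) (by simp), u_mul_u, hred _ (_ + _)])
    (fun a d d' => by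
      rw [← map_mul]; congr 1; ext
      change _ = _ * _
      rw [← hr (by simp) (by simp) (by simp), u_mul_u, hred _ _ _ (_ + _)])
    (fun _ h => h)
    (fun μ d hμ => by
      rw [← hπc (Units.mk0 μ hμ) ⟨cm hσ (u 1 0) (u d 0), _⟩]; congr 1; ext
      change _ = _ * _ * _
      rw [cm_conj]
      simp [hh_conj_u]) h0 h1 h2
  have hle : ⁅(U F).comap σ, (U F).comap σ⁆ ≤ π.ker.map ((Z F).comap σ).subtype := by
    rw [commutator_le]
    rintro x ⟨a, b, hx⟩ y ⟨c, d, hy⟩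
    exact ⟨_, hform a c, by rw [cm_eq hσ, hx, hy, hred a b]; rfl⟩
  rw [eq_bot_iff]
  intro z hz
  refine eq_one_of_forall_prime fun p hp => ?_
  by_cases h2 : p = 2
  · obtain ⟨y, hy, hyz⟩ := hle (pow_index_mem hσ (U F) hz)
    refine ⟨(U F).index * Fintype.card Fˣ, ?_, ?_⟩
    · rw [h2, ← even_iff_two_dvd, Nat.not_even_iff_odd, index_U, ← Nat.card_eq_fintype_card,
        card_units_F]
      exact (odd_q_sub_one.mul odd_q_sq_add_one).mul odd_q_sub_one
    · have h3 : ∀ μ, c μ y = y := fun μ => by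
        ext
        change _ * (y : Γ) * _ = _
        have : (y : Γ) ∈ σ.ker := by
          change ((Z F).comap σ).subtype y ∈ _
          rw [hyz]; exact pow_mem hz _
        rw [(commute_of_mem_ker hσ this _).eq, mul_inv_cancel_right]
      rw [SetLike.mem_coe, MonoidHom.mem_ker, hπ] at hy
      simp only [h3, Finset.prod_const, Finset.card_univ] at hy
      rw [pow_mul, ← hyz, ← map_pow, hy, map_one]
  · have : Fact p.Prime := ⟨hp⟩
    let P : Sylow p (G F m) := default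
    have := isCyclic_of_odd_pGroup hp h2 P.isPGroup'
    exact ⟨_, P.not_dvd_index, pow_index_eq_one hσ P hz⟩

end Cfsg.Agent.Suz
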