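import Cfsg.Agent.Lib.Suz.Mult

/-! Torus normalisers and solvable two-generator subgroups of the Suzuki groups. -/

set_option autoImplicit false

namespace Cfsg.Agent.Suz

open Subgroup
open scoped commutatorElement

variable {F : Type*} [Field F] {m : ℕ} [h : SuzF F m]

/-- The normaliser of the torus through `c`. -/
def NT (c : G F m) : Subgroup (G F m) :=
  normalizer (centralizer ({c} : Set (G F m)) : Set (G F m))

omit h in
theorem NT_conj_comm {c g t : G F m} (hg : g ∈ NT c) (ht : t * c = c * t) :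
    g * t * g⁻¹ * c = c * (g * t * g⁻¹) :=
  mem_cent.mp ((mem_normalizer_iff.mp hg t).mp (mem_cent.mpr ht))

theorem mem_NT_iff {c g : G F m} (hc : tr c ≠ 0) :
    g ∈ NT c ↔ g * c * g⁻¹ * c = c * (g * c * g⁻¹) :=
  ⟨fun hg => NT_conj_comm hg rfl, mem_normalizer_cent hc⟩

theorem NT_eq {c t : G F m} (hc : tr c ≠ 0) (ht : t * c = c * t) (h1 : t ≠ 1) : NT t = NT c := by
  rw [NT, ss_cent_eq hc ht h1, NT]

theorem mem_NT_of_comm {c t : G F m} (hc : tr c ≠ 0) (ht : t * c = c * t) : t ∈ NT c := by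
  rw [mem_NT_iff hc, ht, mul_inv_cancel_right]

theorem eq_one_of_sq_of_comm {c t : G F m} (hc : tr c ≠ 0) (ht : t * c = c * t)
    (h2 : t * t = 1) : t = 1 := by
  by_contra h1
  exact ss_of_commute hc ht h1 (tr_eq_zero_of_sq h2)

theorem exists_sqrt_of_comm {c t : G F m} (hc : tr c ≠ 0) (ht : t * c = c * t) :
    ∃ s : G F m, s * c = c * s ∧ s * s = t := by
  obtain ⟨k, hk⟩ := ss_odd_orderOf_of_commute hc ht
  refine ⟨t ^ (k + 1), ((show Commute t c from ht).pow_left _).eq, ?_⟩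
  rw [← pow_add, show k + 1 + (k + 1) = orderOf t + 1 by omega, pow_succ, pow_orderOf_eq_one,
    one_mul]

/-- An involution normalising a torus inverts it. -/
theorem invol_inverts {c z t : G F m} (hc : tr c ≠ 0) (hz : z * z = 1) (hz1 : z ≠ 1)
    (hN : z ∈ NT c) (ht : t * c = c * t) : z * t * z⁻¹ = t⁻¹ := by
  have h1 := NT_conj_comm hN ht
  have h2 := ss_comm hc ht h1
  have hzi : z⁻¹ = z := inv_eq_of_mul_eq_one_right hz
  by_contra hne
  have h3 : t * (z * t * z⁻¹) ≠ 1 := fun he => hne (eq_inv_of_mul_eq_one_right he)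
  have h4 : t * (z * t * z⁻¹) * c = c * (t * (z * t * z⁻¹)) := by
    rw [mul_assoc, h1, ← mul_assoc, ht, mul_assoc]
  apply hz1
  refine eq_one_of_sq_of_comm (ss_of_commute hc h4 h3) ?_ hz
  nth_rewrite 2 [h2]
  rw [hzi]
  calc z * (t * (z * t * z)) = z * t * z * t * z := by group
    _ = _ := by group

theorem FPF.pow_q_sq {c : G F m} (hc : FPF c) : c ^ (2 ^ (2 * m + 1)) ^ 2 = c⁻¹ :=
  eq_inv_of_mul_eq_one_left (by rw [← pow_succ, hc.pow_eq_one])

theorem eq_or_eq_inv_of_hh {x c' : G F m} {μ : Fˣ} (hμ : μ ≠ 1) (h1 : IsConj (x * hh μ * x⁻¹) c')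
    (h2 : c' * (x * hh μ * x⁻¹) = x * hh μ * x⁻¹ * c') :
    c' = x * hh μ * x⁻¹ ∨ c' = (x * hh μ * x⁻¹)⁻¹ := by
  have h3 := mem_cent_conj.mp (mem_cent.mpr h2)
  rw [centralizer_hh hμ] at h3
  obtain ⟨g, rfl⟩ := isConj_iff.mp h1
  have h4 : x⁻¹ * (g * (x * hh μ * x⁻¹) * g⁻¹) * x = x⁻¹ * g * x * hh μ * (x⁻¹ * g * x)⁻¹ := by
    group
  rw [h4] at h3
  have h5 : g * (x * hh μ * x⁻¹) * g⁻¹ =
      x * (x⁻¹ * g * x * hh μ * (x⁻¹ * g * x)⁻¹) * x⁻¹ := by group
  rw [h5]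
  rcases conj_hh_mem_H hμ h3 with ⟨ν, hν⟩ | ⟨ν, hν⟩ <;> rw [hν]
  · left; rw [hh_comm, mul_inv_cancel_right]
  · right; rw [hh_w_conj_hh, ← hh_inv]; group

theorem exists_zpow_of_mem_NT {c g : G F m} (hc : tr c ≠ 0) (hg : g ∈ NT c) :
    ∃ i : ℤ, g * c * g⁻¹ = c ^ i ∧ c ^ i ^ 4 = c := by
  have h1 := NT_conj_comm hg rfl
  rcases ss_cases hc with ⟨x, μ, hμ, rfl⟩ | hf
  · rcases eq_or_eq_inv_of_hh hμ (isConj_iff.mpr ⟨g, rfl⟩) h1 with h2 | h2
    · exact ⟨1, by simpa using h2, by simp⟩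
    · exact ⟨-1, by simpa using h2, by norm_num⟩
  · have h2 := hf.pow_q_sq
    have h3 := hf.eq_pow_of_tr_eq h1 (tr_conj _ _)
    generalize 2 ^ (2 * m + 1) = q at h2 h3
    have h4 : c ^ q ^ 4 = c := by
      rw [show q ^ 4 = q ^ 2 * q ^ 2 by ring, pow_mul, h2, inv_pow, h2, inv_inv]
    have h5 : ∀ k : ℕ, c ^ (q ^ k) ^ 4 = c := fun k => by
      induction k with
      | zero => simp
      | succ k ih => rw [pow_succ q, mul_pow, pow_mul, ih, h4]
    have h6 : ∀ k : ℕ, g * c * g⁻¹ = c ^ q ^ k → ∃ i : ℤ, g * c * g⁻¹ = c ^ i ∧ c ^ i ^ 4 = c :=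
      fun k hk => ⟨(q ^ k : ℕ), by rw [hk, zpow_natCast], by
        rw [← Nat.cast_pow, zpow_natCast, h5]⟩
    rcases h3 with h3 | h3 | h3 | h3
    exacts [h6 0 (by simpa using h3), h6 1 (by simpa using h3), h6 2 h3, h6 3 h3]

theorem comm_of_mem_NT_of_odd {c g : G F m} (hc : tr c ≠ 0) (hg : g ∈ NT c)
    (ho : Odd (orderOf g)) : g * c = c * g := by
  obtain ⟨i, h1, h2⟩ := exists_zpow_of_mem_NT hc hg
  have h3 : ∀ n : ℕ, g ^ n * c * (g ^ n)⁻¹ = c ^ i ^ n := fun n => by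
    induction n with
    | zero => simp
    | succ n ih =>
      rw [pow_succ' g, show g * g ^ n * c * (g * g ^ n)⁻¹ = g * (g ^ n * c * (g ^ n)⁻¹) * g⁻¹ by
        group, ih, ← conj_zpow, h1, ← zpow_mul, pow_succ']
  have h4 : Commute (g ^ 4) c := by
    have := h3 4
    rwa [h2, mul_inv_eq_iff_eq_mul] at this
  obtain ⟨k, hk⟩ := exists_pow_eq_self_of_coprime (x := g) (n := 4)
    (Nat.Coprime.pow_left 2 (Nat.coprime_two_left.mpr ho))
  rw [← hk]
  exact (h4.pow_left k).eq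

theorem isSolvable_of_chain {A : Type*} [Group A] {M M1 M2 : Subgroup A} (h1 : ⁅M, M⁆ ≤ M1)
    (h2 : ⁅M1, M1⁆ ≤ M2) (h3 : ⁅M2, M2⁆ = ⊥) : Group.IsSolvable M := by
  refine ⟨⟨3, ?_⟩⟩
  rw [← map_eq_bot_iff_of_injective _ M.subtype_injective, eq_bot_iff, ← h3]
  have key : ∀ (n : ℕ) (K : Subgroup A), (derivedSeries M n).map M.subtype ≤ K →
      (derivedSeries M (n + 1)).map M.subtype ≤ ⁅K, K⁆ := fun n K hK => by
    rw [derivedSeries_succ, map_commutator]; exact commutator_mono hK hK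
  exact key 2 _ ((key 1 _ ((key 0 _ (map_subtype_le _)).trans h1)).trans h2)

theorem isSolvable_NT {c : G F m} (hc : tr c ≠ 0) : Group.IsSolvable (NT c) := by
  refine isSolvable_of_chain (M1 := centralizer {c}) (M2 := ⊥) ?_ ?_ (by simp)
  · rw [commutator_le]
    intro g hg k hk
    obtain ⟨i, hi, -⟩ := exists_zpow_of_mem_NT hc (inv_mem hg)
    obtain ⟨j, hj, -⟩ := exists_zpow_of_mem_NT hc (inv_mem hk)
    have h1 : k⁻¹ * (g⁻¹ * c * g⁻¹⁻¹) * k⁻¹⁻¹ = g⁻¹ * (k⁻¹ * c * k⁻¹⁻¹) * g⁻¹⁻¹ := by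
      rw [hi, hj, ← conj_zpow, ← conj_zpow, hi, hj, ← zpow_mul, ← zpow_mul, mul_comm]
    rw [mem_cent, commutatorElement_def]
    calc g * k * g⁻¹ * k⁻¹ * c = g * k * (g⁻¹ * (k⁻¹ * c * k⁻¹⁻¹) * g⁻¹⁻¹) * g⁻¹ * k⁻¹ := by group
      _ = _ := by rw [← h1]; group
  · rw [commutator_le]
    intro g hg k hk
    rw [mem_bot, commutatorElement_eq_one_iff_mul_comm]
    exact ss_comm hc (mem_cent.mp hg) (mem_cent.mp hk)

theorem commutator_mem_U {g k : G F m} (hg : g ∈ B F) (hk : k ∈ B F) : ⁅g, k⁆ ∈ U F := by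
  obtain ⟨a, b, μ, rfl⟩ := mem_B_iff.mp hg
  obtain ⟨c, d, ν, rfl⟩ := mem_B_iff.mp hk
  have : ⁅(u a b * hh μ : G F m), u c d * hh ν⁆ = u a b * (hh μ * u c d * (hh μ)⁻¹) *
      (hh μ * hh ν * (hh μ)⁻¹ * (u a b)⁻¹ * (hh ν)⁻¹) * (u c d)⁻¹ := by
    rw [commutatorElement_def]; group
  rw [this, hh_comm μ ν, mul_inv_cancel_right]
  refine mul_mem (mul_mem (mul_mem (by simp) (conj_mem_U (by simp) (by simp)))
    (conj_mem_U (inv_mem (by simp)) (by simp))) (inv_mem (by simp))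

theorem isSolvable_B : Group.IsSolvable (B F) := by
  refine isSolvable_of_chain (M1 := U F) (M2 := Z F) ?_ ?_ ?_
  · rw [commutator_le]; exact fun g hg k hk => commutator_mem_U hg hk
  · rw [commutator_le]; exact fun g hg k hk => commutator_mem_Z hg hk
  · rw [eq_bot_iff, commutator_le]
    rintro _ ⟨b, rfl⟩ _ ⟨d, rfl⟩
    rw [mem_bot, commutatorElement_eq_one_iff_mul_comm, u_comm_z]

theorem isSolvable_of_le {A : Type*} [Group A] {M K : Subgroup A} (hle : M ≤ K)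
    (hK : Group.IsSolvable K) : Group.IsSolvable M :=
  Group.isSolvable_of_isSolvable_injective (inclusion_injective hle)

theorem isSolvable_stabilizer (α : Pt F m) : Group.IsSolvable (MulAction.stabilizer (G F m) α) := by
  obtain ⟨x, rfl⟩ := exists_smul_inf_eq α
  have := isSolvable_B (F := F)
  rw [MulAction.stabilizer_smul_eq_stabilizer_map_conj]
  exact Group.isSolvable_of_surjective (f := ((MulAut.conj x).subgroupMap (B F)).toMonoidHom)
    (MulEquiv.surjective _)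

theorem commutator_G : commutator (G F m) = ⊤ := by
  obtain ⟨t, ht0, ht1⟩ := exists_ne_zero_one (F := F)
  have h1 : ⁅(hh (Units.mk0 t ht0) : G F m), u 0 1⁆ = u 0 (t * θ t + 1) := by
    rw [commutatorElement_def, hh_conj_u, u_inv, u_mul_u]; simp
  refine eq_top_of_normal_of_invol (i := u 0 (t * θ t + 1)) (sq_of_mem_Z (u_mem_Z _)) ?_ ?_
  · rw [Ne, u_eq_one]
    rintro ⟨-, h2⟩
    exact ht1 (nm_eq_one.mp (by grind))
  · rw [← h1]; exact commutator_mem_commutator trivial trivial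

theorem not_isSolvable_G : ¬ Group.IsSolvable (G F m) := fun _ => by
  have : Nontrivial (G F m) := ⟨⟨w, 1, fun he => w_not_mem_B (he ▸ one_mem (B F))⟩⟩
  exact (Group.IsSolvable.commutator_lt_top_of_nontrivial (G F m)).ne commutator_G

/-- The explicit description of the pairs generating a solvable subgroup. -/
def Sol (x y : G F m) : Prop :=
  (∃ α : Pt F m, x • α = α ∧ y • α = α) ∨ ∃ c : G F m, tr c ≠ 0 ∧ x ∈ NT c ∧ y ∈ NT c

theorem isSolvable_closure_iff (hp : (2 * m + 1).Prime) (x y : G F m) :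
    Group.IsSolvable (closure ({x, y} : Set (G F m))) ↔ Sol x y := by
  have hx : x ∈ closure ({x, y} : Set (G F m)) := subset_closure (by simp)
  have hy : y ∈ closure ({x, y} : Set (G F m)) := subset_closure (by simp)
  constructor
  · intro hs
    rcases subgroup_cases (closure ({x, y} : Set (G F m))) with ⟨α, hα⟩ | ⟨c, hc, hle⟩ |
      ⟨g, L, hL, he⟩
    · exact Or.inl ⟨α, hα x hx, hα y hy⟩
    · exact Or.inr ⟨c, hc, hle hx, hle hy⟩
    · exfalso
      obtain ⟨k, hk, hd⟩ := exists_suzF_subfield L hL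
      have h1 := one_le_m L
      have h2 : k = m := by
        rcases (Nat.dvd_prime hp).mp hd with h2 | h2 <;> omega
      have h3 : L = ⊤ := by
        have : L.toAddSubgroup = ⊤ :=
          AddSubgroup.eq_top_of_card_eq _ ((card_F (F := L)).trans (h2 ▸ (card_F (F := F)).symm))
        exact eq_top_iff.mpr fun t _ => (this.ge trivial : t ∈ L.toAddSubgroup)
      rw [h3, subSz_top] at he
      have h4 : closure ({x, y} : Set (G F m)) = ⊤ := eq_top_iff.mpr fun t _ => by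
        have : g⁻¹ * t * g ∈ cj g (closure {x, y}) := by rw [he]; trivial
        simpa [mem_cj, mul_assoc] using this
      rw [h4] at hs
      exact not_isSolvable_G (Group.isSolvable_of_surjective (f := (⊤ : Subgroup (G F m)).subtype)
        fun t => ⟨⟨t, trivial⟩, rfl⟩)
  · rintro (⟨α, h1, h2⟩ | ⟨c, hc, h1, h2⟩)
    · refine isSolvable_of_le ?_ (isSolvable_stabilizer α)
      rw [closure_le]; rintro _ (rfl | rfl); exacts [h1, h2]
    · refine isSolvable_of_le ?_ (isSolvable_NT hc)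
      rw [closure_le]; rintro _ (rfl | rfl); exacts [h1, h2]

end Cfsg.Agent.Suz
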